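import Mathlib
import Cfsg.Agent.H616.TI.Defs
import Cfsg.Agent.H644.KGV.Final
import Cfsg.Agent.Characters.Brauer
import Cfsg.Agent.OddOrderCharacters.PF13.SumBound

/-!
# S4821, task KAP: the class function `κ` for the action of a `p'`-group on an abelian `p`-group

Induction on `|V|`: for exponent `p` this is `H644.KGV.existsK'` for `V ⋊ φ(K)`; otherwise
`κ_V = κ_{V_1} κ_{V_2}` with `V_1` the kernel and `V_2` the image of `v ↦ v ^ p`.
-/

set_option autoImplicit false
set_option linter.unusedSectionVars false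

namespace Cfsg.Agent.H538.TI

open Cfsg Subgroup
open Cfsg.Agent.H644.KGV (KData UInt)
open Cfsg.Agent.Characters.Brauer (isGeneralizedCharacter_add isGeneralizedCharacter_mul
  isGeneralizedCharacter_zero)

universe u

section tools

theorem gen_sum {G : Type*} [Group G] {ι : Type*} (s : Finset ι) {f : ι → G → ℂ}
    (h : ∀ i ∈ s, IsGeneralizedCharacter G (f i)) : IsGeneralizedCharacter G (fun g => ∑ i ∈ s, f i g) := by
  classical
  induction s using Finset.induction_on with
  | empty =>
    simp only [Finset.sum_empty]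
    exact isGeneralizedCharacter_zero
  | insert a s ha ih =>
    simp only [Finset.sum_insert ha]
    exact isGeneralizedCharacter_add (h a (Finset.mem_insert_self _ _))
      (ih fun i hi => h i (Finset.mem_insert_of_mem hi))

theorem gen_comp {G H : Type*} [Group G] [Group H] (f : H →* G) {χ : G → ℂ}
    (hχ : IsGeneralizedCharacter G χ) : IsGeneralizedCharacter H (fun h => χ (f h)) := by
  obtain ⟨α, β, hα, hβ, rfl⟩ := hχ
  exact ⟨α ∘ f, β ∘ f, Cfsg.Agent.Characters.Core.isCharacter_comp f hα,
    Cfsg.Agent.Characters.Core.isCharacter_comp f hβ, rfl⟩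

/-- `κ` is a sum `∑ ζ ^ k θ_k`. -/
def Unif (p : ℕ) [NeZero p] {K : Type*} [Group K] (κ : K → ℂ) : Prop :=
  ∃ θ : ZMod p → K → ℂ, (∀ k, IsGeneralizedCharacter K (θ k)) ∧
    ∀ g, κ g = ∑ k : ZMod p, (ZMod.stdAddChar k : ℂ) * θ k g

theorem Unif.mul {p : ℕ} [NeZero p] {K : Type*} [Group K] {κ κ' : K → ℂ} (h : Unif p κ)
    (h' : Unif p κ') : Unif p (fun g => κ g * κ' g) := by
  obtain ⟨θ, hθ, hκ⟩ := h
  obtain ⟨θ', hθ', hκ'⟩ := h'
  refine ⟨fun m g => ∑ k : ZMod p, θ k g * θ' (m - k) g, fun m => gen_sum _ fun k _ =>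
    isGeneralizedCharacter_mul (hθ k) (hθ' (m - k)), fun g => ?_⟩
  show κ g * κ' g = _
  rw [hκ g, hκ' g, Finset.sum_mul_sum]
  have h1 : ∀ k : ZMod p, ∑ l : ZMod p, ((ZMod.stdAddChar k : ℂ) * θ k g) * ((ZMod.stdAddChar l : ℂ) * θ' l g) =
      ∑ m : ZMod p, (ZMod.stdAddChar m : ℂ) * (θ k g * θ' (m - k) g) := by
    intro k
    refine Fintype.sum_equiv (Equiv.addRight k) _ _ fun l => ?_
    simp only [Equiv.coe_addRight, add_sub_cancel_right, AddChar.map_add_eq_mul]
    ring
  rw [Finset.sum_congr rfl fun k _ => h1 k, Finset.sum_comm]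
  refine Finset.sum_congr rfl fun m _ => ?_
  rw [Finset.mul_sum]

theorem isIntegral_stdAddChar {p : ℕ} [NeZero p] (k : ZMod p) : IsIntegral ℤ (ZMod.stdAddChar k : ℂ) := by
  refine IsIntegral.of_pow (n := p) (Nat.pos_of_ne_zero (NeZero.ne p)) ?_
  rw [← AddChar.map_nsmul_eq_pow]
  have h1 : p • k = 0 := by
    rw [nsmul_eq_mul, ZMod.natCast_self, zero_mul]
  rw [h1, AddChar.map_zero_eq_one]
  exact isIntegral_one

theorem Unif.isIntegral {p : ℕ} [NeZero p] {K : Type*} [Group K] [Finite K] {κ : K → ℂ} (h : Unif p κ)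
    (g : K) : IsIntegral ℤ (κ g) := by
  obtain ⟨θ, hθ, hκ⟩ := h
  rw [hκ g]
  exact IsIntegral.sum _ fun k _ => (isIntegral_stdAddChar k).mul
    (Cfsg.Agent.OddOrderCharacters.PF13.SumBound.gen_isIntegral (hθ k) g)

end tools

/-- The class function for the action `φ` -/
structure KD (p : ℕ) [Fact p.Prime] {K : Type u} [Group K] {V : Type u} [Group V] (φ : K →* MulAut V)
    (κ : K → ℂ) : Prop where
  unif : Unif p κ
  norm : ∀ g, ‖κ g‖ ^ 2 * (Nat.card {v : V // φ g v = v} : ℝ) = (Nat.card V : ℝ)
  one : ∀ g, φ g = 1 → κ g = 1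
  ideal : ∀ g, φ g ≠ 1 → ∃ y : ℂ, IsIntegral ℤ y ∧ κ g = (1 - (ZMod.stdAddChar (1 : ZMod p) : ℂ)) * y

section res

variable {K : Type*} [Group K] {V : Type*} [Group V]

/-- the restricted action -/
def res (φ : K →* MulAut V) (U : Subgroup V) (hU : ∀ g, ∀ v ∈ U, φ g v ∈ U) : K →* MulAut U where
  toFun g :=
    { toFun := fun v => ⟨φ g v, hU g v v.2⟩
      invFun := fun v => ⟨φ g⁻¹ v, hU _ _ v.2⟩
      left_inv := fun v => by
        apply Subtype.ext
        show φ g⁻¹ (φ g v) = v
        rw [← MulAut.mul_apply, ← map_mul, inv_mul_cancel, map_one, MulAut.one_apply]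
      right_inv := fun v => by
        apply Subtype.ext
        show φ g (φ g⁻¹ v) = v
        rw [← MulAut.mul_apply, ← map_mul, mul_inv_cancel, map_one, MulAut.one_apply]
      map_mul' := fun v w => by
        apply Subtype.ext
        show φ g (v * w) = φ g v * φ g w
        rw [map_mul] }
  map_one' := by
    ext v
    show φ 1 (v : V) = v
    rw [map_one, MulAut.one_apply]
  map_mul' g h := by
    ext v
    show φ (g * h) (v : V) = φ g (φ h v)
    rw [map_mul, MulAut.mul_apply]

theorem res_apply (φ : K →* MulAut V) (U : Subgroup V) (hU : ∀ g, ∀ v ∈ U, φ g v ∈ U) (g : K) (v : U) :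
    ((res φ U hU g v : U) : V) = φ g v := rfl

theorem card_fixed_eq_iff [Finite V] {φ : K →* MulAut V} {g : K} :
    Nat.card {v : V // φ g v = v} = Nat.card V ↔ φ g = 1 := by
  classical
  constructor
  · intro h
    have : Fintype V := Fintype.ofFinite V
    ext v
    rw [MulAut.one_apply]
    by_contra hv
    have h1 : Nat.card {v : V // φ g v = v} < Nat.card V := by
      rw [Nat.card_eq_fintype_card, Nat.card_eq_fintype_card]
      exact Fintype.card_subtype_lt hv
    omega
  · intro h
    refine Nat.card_congr (Equiv.subtypeUnivEquiv fun v => ?_)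
    rw [h, MulAut.one_apply]

end res

section abelian

variable {K : Type*} [Group K] {V : Type*} [CommGroup V] [Finite V]

/-- A fixed point `v ^ p` is the `p`-th power of a fixed point (coprime action). -/
theorem exists_fixed_pow {φ : K →* MulAut V} {g : K} {p m : ℕ} (hg : g ^ m = 1)
    (hm : m.Coprime (Nat.card V)) {v : V} (hv : φ g (v ^ p) = v ^ p) :
    ∃ u : V, φ g u = u ∧ u ^ p = v ^ p := by
  set f := φ g with hf
  have hfm : f ^ m = 1 := by rw [hf, ← map_pow, hg, map_one]
  set w : V := ∏ i ∈ Finset.range m, (f ^ i) v with hw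
  have hfw : f w = w := by
    rw [hw, map_prod]
    have h1 : ∀ i ∈ Finset.range m, f ((f ^ i) v) = (f ^ (i + 1)) v := fun i _ => by
      rw [pow_succ', MulAut.mul_apply]
    rw [Finset.prod_congr rfl h1]
    have h2 := Finset.prod_range_succ (fun i => (f ^ i) v) m
    rw [Finset.prod_range_succ', hfm] at h2
    simp only [pow_zero, MulAut.one_apply] at h2
    exact mul_right_cancel h2
  have hpow : ∀ i : ℕ, (f ^ i) (v ^ p) = v ^ p := by
    intro i
    induction i with
    | zero => rfl
    | succ i ih => rw [pow_succ, MulAut.mul_apply, hv, ih]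
  have hwp : w ^ p = (v ^ p) ^ m := by
    rw [hw, ← Finset.prod_pow]
    have h1 : ∀ i ∈ Finset.range m, ((f ^ i) v) ^ p = v ^ p := fun i _ => by
      rw [← map_pow, hpow i]
    rw [Finset.prod_congr rfl h1, Finset.prod_const, Finset.card_range]
  have hinj : Function.Injective fun x : V => x ^ m := (powCoprime hm.symm).injective
  obtain ⟨u, hu⟩ := (powCoprime hm.symm).surjective w
  rw [powCoprime_apply] at hu
  refine ⟨u, hinj ?_, hinj ?_⟩
  · show (f u) ^ m = u ^ m
    rw [← map_pow, hu, hfw]
  · show (u ^ p) ^ m = (v ^ p) ^ m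
    rw [← hwp, ← pow_mul, mul_comm, pow_mul, hu]

/-- the fixed points of `φ g` -/
def fixed (φ : K →* MulAut V) (g : K) : Subgroup V := (φ g).toMonoidHom.eqLocus (MonoidHom.id V)

theorem mem_fixed {φ : K →* MulAut V} {g : K} {v : V} : v ∈ fixed φ g ↔ φ g v = v := Iff.rfl

theorem card_fixed {φ : K →* MulAut V} {g : K} : Nat.card {v : V // φ g v = v} = Nat.card (fixed φ g) := rfl

theorem card_fixed_res (φ : K →* MulAut V) (U : Subgroup V) (hU : ∀ g, ∀ v ∈ U, φ g v ∈ U) (g : K) :
    Nat.card {v : U // res φ U hU g v = v} = Nat.card ↥(U ⊓ fixed φ g) := by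
  refine Nat.card_congr
    { toFun := fun v => ⟨v.1.1, v.1.2, congrArg Subtype.val v.2⟩
      invFun := fun v => ⟨⟨v.1, v.2.1⟩, Subtype.ext v.2.2⟩
      left_inv := fun v => rfl
      right_inv := fun v => rfl }

/-- the count -/
theorem card_fixed_mul {φ : K →* MulAut V} {g : K} {p m : ℕ} (hg : g ^ m = 1)
    (hm : m.Coprime (Nat.card V)) :
    Nat.card (fixed φ g) = Nat.card ↥((powMonoidHom p : V →* V).ker ⊓ fixed φ g) *
      Nat.card ↥((powMonoidHom p : V →* V).range ⊓ fixed φ g) := by
  set f : fixed φ g →* V := (powMonoidHom p : V →* V).comp (fixed φ g).subtype with hf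
  have h1 : Nat.card (fixed φ g) = Nat.card f.ker * Nat.card f.range := by
    rw [← Subgroup.index_ker, Subgroup.card_mul_index]
  have h2 : Nat.card f.ker = Nat.card ↥((powMonoidHom p : V →* V).ker ⊓ fixed φ g) := by
    have h3 : (powMonoidHom p : V →* V).ker ⊓ fixed φ g = f.ker.map (fixed φ g).subtype := by
      ext v
      constructor
      · rintro ⟨hv, hvf⟩
        exact ⟨⟨v, hvf⟩, hv, rfl⟩
      · rintro ⟨w, hw, rfl⟩
        exact ⟨hw, w.2⟩
    rw [h3, Subgroup.card_map_of_injective (fixed φ g).subtype_injective]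
  have h4 : f.range = (powMonoidHom p : V →* V).range ⊓ fixed φ g := by
    ext v
    constructor
    · rintro ⟨w, rfl⟩
      refine ⟨⟨w, rfl⟩, ?_⟩
      show φ g ((w : V) ^ p) = (w : V) ^ p
      rw [map_pow, mem_fixed.mp w.2]
    · rintro ⟨⟨w, rfl⟩, hw⟩
      obtain ⟨u, hu, hup⟩ := exists_fixed_pow hg hm (v := w) (p := p) hw
      exact ⟨⟨u, hu⟩, hup⟩
  rw [h1, h2, h4]

end abelian

section step

variable {p : ℕ} [Fact p.Prime] {K : Type u} [Group K] [Finite K] {V : Type u} [CommGroup V] [Finite V]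

/-- the inductive step -/
theorem step (hK : ¬ p ∣ Nat.card K) (hV : IsPGroup p V) {φ : K →* MulAut V}
    (h1 : ∀ g, ∀ v ∈ (powMonoidHom p : V →* V).ker, φ g v ∈ (powMonoidHom p : V →* V).ker)
    (h2 : ∀ g, ∀ v ∈ (powMonoidHom p : V →* V).range, φ g v ∈ (powMonoidHom p : V →* V).range)
    {κ₁ κ₂ : K → ℂ} (hκ₁ : KD p (res φ _ h1) κ₁) (hκ₂ : KD p (res φ _ h2) κ₂) :
    KD p φ (fun g => κ₁ g * κ₂ g) := by
  have hp : p.Prime := Fact.out
  have hcardV : Nat.card (powMonoidHom p : V →* V).ker * Nat.card (powMonoidHom p : V →* V).range =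
      Nat.card V := by
    rw [← Subgroup.index_ker, Subgroup.card_mul_index]
  have hcop : ∀ g : K, (orderOf g).Coprime (Nat.card V) := by
    intro g
    obtain ⟨n, hn⟩ := IsPGroup.iff_card.mp hV
    rw [hn]
    refine Nat.Coprime.pow_right n ((Nat.Prime.coprime_iff_not_dvd hp).2 fun hd => ?_).symm
    exact hK (hd.trans (orderOf_dvd_natCard g))
  have hcount : ∀ g : K, Nat.card {v : V // φ g v = v} =
      Nat.card {v : (powMonoidHom p : V →* V).ker // res φ _ h1 g v = v} *
      Nat.card {v : (powMonoidHom p : V →* V).range // res φ _ h2 g v = v} := by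
    intro g
    rw [card_fixed_res, card_fixed_res, card_fixed]
    exact card_fixed_mul (pow_orderOf_eq_one g) (hcop g)
  refine ⟨hκ₁.unif.mul hκ₂.unif, fun g => ?_, fun g hg => ?_, fun g hg => ?_⟩
  · rw [hcount g, ← hcardV, norm_mul, Nat.cast_mul, Nat.cast_mul, ← hκ₁.norm g, ← hκ₂.norm g]
    ring
  · have e1 : res φ _ h1 g = 1 := by
      ext v
      rw [res_apply, hg]; rfl
    have e2 : res φ _ h2 g = 1 := by
      ext v
      rw [res_apply, hg]; rfl
    rw [hκ₁.one g e1, hκ₂.one g e2, mul_one]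
  · by_cases e1 : res φ _ h1 g = 1
    · by_cases e2 : res φ _ h2 g = 1
      · exfalso
        apply hg
        rw [← card_fixed_eq_iff, hcount g, card_fixed_eq_iff.mpr e1, card_fixed_eq_iff.mpr e2, hcardV]
      · obtain ⟨y, hy, hye⟩ := hκ₂.ideal g e2
        refine ⟨κ₁ g * y, (hκ₁.unif.isIntegral g).mul hy, ?_⟩
        rw [hye]; ring
    · obtain ⟨y, hy, hye⟩ := hκ₁.ideal g e1
      refine ⟨y * κ₂ g, hy.mul (hκ₂.unif.isIntegral g), ?_⟩
      rw [hye]; ring

end step

section base

variable {p : ℕ} [Fact p.Prime] {K : Type u} [Group K] [Finite K] {V : Type u} [CommGroup V] [Finite V]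

/-- exponent `p` -/
theorem base (hK : ¬ p ∣ Nat.card K) (hV : ∀ v : V, v ^ p = 1) (φ : K →* MulAut V) :
    ∃ κ : K → ℂ, KD p φ κ := by
  classical
  have hp : p.Prime := Fact.out
  let R : Subgroup (MulAut V) := φ.range
  let X := V ⋊[R.subtype] R
  have hfin : Finite X := Finite.of_equiv (V × R) (SemidirectProduct.equivProd (φ := R.subtype)).symm
  let V' : Subgroup X := (SemidirectProduct.inl : V →* X).range
  let G' : Subgroup X := (SemidirectProduct.inr : R →* X).range
  have hinl : Function.Injective (SemidirectProduct.inl : V →* X) := SemidirectProduct.inl_injective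
  have hinr : Function.Injective (SemidirectProduct.inr : R →* X) := SemidirectProduct.inr_injective
  have hV'n : V'.Normal := by
    show ((SemidirectProduct.inl : V →* X).range).Normal
    rw [SemidirectProduct.range_inl_eq_ker_rightHom]
    infer_instance
  have hRK : Nat.card R ∣ Nat.card K := Subgroup.card_range_dvd φ
  have hR : ¬ p ∣ Nat.card R := fun h => hK (h.trans hRK)
  have hcV : Nat.card V' = Nat.card V := (Nat.card_congr (MonoidHom.ofInjective hinl).toEquiv).symm
  have hcG : Nat.card G' = Nat.card R := (Nat.card_congr (MonoidHom.ofInjective hinr).toEquiv).symm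
  have hcX : Nat.card X = Nat.card V * Nat.card R := by
    rw [← Nat.card_prod]
    exact Nat.card_congr (SemidirectProduct.equivProd (φ := R.subtype))
  have hVp : IsPGroup p V := fun v => ⟨1, by rw [pow_one]; exact hV v⟩
  have hcop : (Nat.card V').Coprime (Nat.card G') := by
    rw [hcV, hcG]
    obtain ⟨n, hn⟩ := IsPGroup.iff_card.mp hVp
    rw [hn]
    exact Nat.Coprime.pow_left n ((Nat.Prime.coprime_iff_not_dvd hp).2 hR)
  have hcompl : Subgroup.IsComplement' V' G' :=
    Subgroup.isComplement'_of_coprime (by rw [hcV, hcG, hcX]) hcop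
  have hidx : ¬ p ∣ V'.index := by
    rw [hcompl.symm.index_eq_card, hcG]
    exact hR
  have hmul : ∀ (r : R) (v : V), (SemidirectProduct.inr r : X) * SemidirectProduct.inl v =
      SemidirectProduct.inl ((r : MulAut V) v) * SemidirectProduct.inr r := by
    intro r v
    have := SemidirectProduct.inl_aut (φ := R.subtype) r v
    rw [Subgroup.subtype_apply] at this
    rw [this, mul_assoc _ (SemidirectProduct.inr r⁻¹ : X), ← map_mul, inv_mul_cancel, map_one, mul_one]
  have hcomm : ∀ (r : R) (v : V), (SemidirectProduct.inl v : X) * SemidirectProduct.inr r =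
      SemidirectProduct.inr r * SemidirectProduct.inl v ↔ (r : MulAut V) v = v := by
    intro r v
    rw [hmul r v]
    constructor
    · intro h
      exact (hinl (mul_right_cancel h)).symm
    · intro h
      rw [h]
  have hcent : Subgroup.centralizer (V' : Set X) = V' := by
    apply le_antisymm
    · intro x hx
      have hx1 : x = SemidirectProduct.inl x.left * SemidirectProduct.inr x.right :=
        (SemidirectProduct.inl_left_mul_inr_right x).symm
      have h1 : x.right = 1 := by
        apply Subtype.ext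
        ext v
        show (x.right : MulAut V) v = v
        rw [← hcomm x.right v]
        have h2 := mem_centralizer_iff.mp hx (SemidirectProduct.inl v) ⟨v, rfl⟩
        rw [hx1] at h2
        have h3 : (SemidirectProduct.inl v : X) * SemidirectProduct.inl x.left =
            SemidirectProduct.inl x.left * SemidirectProduct.inl v := by
          rw [← map_mul, ← map_mul, mul_comm]
        have h4 : (SemidirectProduct.inl x.left : X) * (SemidirectProduct.inl v * SemidirectProduct.inr x.right) =
            SemidirectProduct.inl x.left * (SemidirectProduct.inr x.right * SemidirectProduct.inl v) := by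
          rw [← mul_assoc, ← h3, mul_assoc, h2, mul_assoc]
        exact mul_left_cancel h4
      rw [hx1, h1, map_one, mul_one]
      exact ⟨x.left, rfl⟩
    · rintro _ ⟨v, rfl⟩
      rw [mem_centralizer_iff]
      rintro _ ⟨w, rfl⟩
      rw [← map_mul, ← map_mul, mul_comm]
  obtain ⟨κ, hκ⟩ := Cfsg.Agent.H644.KGV.existsK' p X V' G' (by
    rintro _ ⟨v, rfl⟩
    rw [← map_pow, hV v, map_one]) hidx hcent hcompl
  let j : K →* G' := ((SemidirectProduct.inr : R →* X).rangeRestrict).comp φ.rangeRestrict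
  have hj : ∀ g : K, ((j g : G') : X) = SemidirectProduct.inr (φ.rangeRestrict g) := fun g => rfl
  have hj1 : ∀ g : K, j g = 1 ↔ φ g = 1 := by
    intro g
    constructor
    · intro h
      have h1 : (SemidirectProduct.inr (φ.rangeRestrict g) : X) = 1 := by
        rw [← hj g, h]; rfl
      have h2 : φ.rangeRestrict g = 1 := hinr (by rw [h1, map_one])
      exact congrArg Subtype.val h2
    · intro h
      have h2 : φ.rangeRestrict g = 1 := Subtype.ext h
      apply Subtype.ext
      rw [hj g, h2, map_one]; rfl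
  refine ⟨fun g => κ 1 (j g), ?_, fun g => ?_, fun g hg => ?_, fun g hg => ?_⟩
  · obtain ⟨θ, hθ, hκθ⟩ := hκ.uint
    refine ⟨fun k g => θ k (j g), fun k => gen_comp j (hθ k), fun g => ?_⟩
    show κ 1 (j g) = _
    rw [hκθ 1 one_ne_zero (j g)]
    simp only [one_mul]
  · have h1 := hκ.norm 1 one_ne_zero (j g)
    have h2 : Nat.card ↥(V' ⊓ Subgroup.centralizer ({((j g : G') : X)} : Set X)) =
        Nat.card {v : V // φ g v = v} := by
      have h3 : V' ⊓ Subgroup.centralizer ({((j g : G') : X)} : Set X) =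
          (fixed φ g).map (SemidirectProduct.inl : V →* X) := by
        ext x
        constructor
        · rintro ⟨⟨v, rfl⟩, hv⟩
          refine ⟨v, ?_, rfl⟩
          have h4 := mem_centralizer_iff.mp hv _ rfl
          rw [hj g] at h4
          exact (hcomm (φ.rangeRestrict g) v).mp h4.symm
        · rintro ⟨v, hv, rfl⟩
          refine ⟨⟨v, rfl⟩, mem_centralizer_iff.mpr fun y hy => ?_⟩
          rw [Set.mem_singleton_iff.mp hy, hj g]
          exact ((hcomm (φ.rangeRestrict g) v).mpr hv).symm
      rw [h3, Subgroup.card_map_of_injective hinl]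
      rfl
    rw [h2, hcV] at h1
    exact h1
  · show κ 1 (j g) = 1
    rw [(hj1 g).mpr hg]
    exact hκ.one 1 one_ne_zero
  · exact hκ.ideal 1 one_ne_zero (j g) fun h => hg ((hj1 g).mp h)

end base

theorem exists_KD {p : ℕ} [Fact p.Prime] {K : Type u} [Group K] [Finite K] (hK : ¬ p ∣ Nat.card K) :
    ∀ (n : ℕ) (V : Type u) [CommGroup V] [Finite V], Nat.card V = n → IsPGroup p V →
      ∀ φ : K →* MulAut V, ∃ κ : K → ℂ, KD p φ κ := by
  intro n
  induction n using Nat.strong_induction_on with
  | _ n ih =>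
  intro V _ _ hn hV φ
  have hp : p.Prime := Fact.out
  by_cases hexp : ∀ v : V, v ^ p = 1
  · exact base hK hexp φ
  have h1 : ∀ g, ∀ v ∈ (powMonoidHom p : V →* V).ker, φ g v ∈ (powMonoidHom p : V →* V).ker := by
    intro g v hv
    have hv' : v ^ p = 1 := hv
    show (φ g v) ^ p = 1
    rw [← map_pow, hv', map_one]
  have h2 : ∀ g, ∀ v ∈ (powMonoidHom p : V →* V).range, φ g v ∈ (powMonoidHom p : V →* V).range := by
    rintro g _ ⟨v, rfl⟩
    exact ⟨φ g v, by simp⟩
  have hcardV : Nat.card (powMonoidHom p : V →* V).ker * Nat.card (powMonoidHom p : V →* V).range =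
      Nat.card V := by
    rw [← Subgroup.index_ker, Subgroup.card_mul_index]
  have hk1 : Nat.card (powMonoidHom p : V →* V).ker ≠ 1 := by
    intro hc
    rw [Subgroup.card_eq_one] at hc
    apply hexp
    -- `v ↦ v ^ p` is injective on a `p`-group, so the group is trivial
    have hinj : Function.Injective (powMonoidHom p : V →* V) := (MonoidHom.ker_eq_bot_iff _).mp hc
    intro v
    obtain ⟨k, hk⟩ := hV v
    have h5 : ∀ k : ℕ, v ^ p ^ k = 1 → v = 1 := by
      intro k
      induction k with
      | zero => intro h; simpa using h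
      | succ k ih' =>
        intro h
        apply ih'
        apply hinj
        rw [map_one, powMonoidHom_apply, ← pow_mul, ← pow_succ]
        exact h
    rw [h5 k hk, one_pow]
  have hr1 : Nat.card (powMonoidHom p : V →* V).range ≠ 1 := by
    intro hc
    rw [Subgroup.card_eq_one] at hc
    apply hexp
    intro v
    have h5 : (powMonoidHom p : V →* V) v ∈ (powMonoidHom p : V →* V).range := ⟨v, rfl⟩
    rw [hc, mem_bot] at h5
    exact h5
  have hk0 : 0 < Nat.card (powMonoidHom p : V →* V).ker := Nat.card_pos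
  have hr0 : 0 < Nat.card (powMonoidHom p : V →* V).range := Nat.card_pos
  have hlt1 : Nat.card (powMonoidHom p : V →* V).ker < n := by
    rw [← hn, ← hcardV]
    exact lt_mul_of_one_lt_right hk0 (by omega)
  have hlt2 : Nat.card (powMonoidHom p : V →* V).range < n := by
    rw [← hn, ← hcardV]
    exact lt_mul_of_one_lt_left hr0 (by omega)
  obtain ⟨κ₁, hκ₁⟩ := ih _ hlt1 (powMonoidHom p : V →* V).ker rfl (hV.to_subgroup _) (res φ _ h1)
  obtain ⟨κ₂, hκ₂⟩ := ih _ hlt2 (powMonoidHom p : V →* V).range rfl (hV.to_subgroup _) (res φ _ h2)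
  exact ⟨_, step hK hV h1 h2 hκ₁ hκ₂⟩

/-- **S4821, task KAP.** -/
theorem result : Cfsg.Agent.H616.TI.GoalKap.{u} := by
  intro p _ K _ _ V _ _ hV hK φ
  obtain ⟨κ, hκ⟩ := exists_KD hK _ V rfl hV φ
  obtain ⟨θ, hθ, hκθ⟩ := hκ.unif
  exact ⟨κ, θ, hθ, hκθ, hκ.norm, hκ.one, hκ.ideal⟩

end Cfsg.Agent.H538.TI
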